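import Cfsg.Agent.H864.RC.T3
import Cfsg.Agent.H579.RC.KL

/-!
# S3510, triality type iii (helper499): one-parameter groups

`no_one_param` : in the environment `T3` (all `r i ≠ p`) no `M ≠ 0`, `M² = 0`, commuting with all `g i`, has all
`1 + t M`, `t ∈ F`, in `E Q`.  By (KL) with `l = p` a conjugate of this group consists of automorphisms of the twisted
product, and the independence of the characters `1, s, s⁻¹, s s⁻¹` gives `M = 0`.
-/

set_option autoImplicit false
open Cfsg

namespace Cfsg.Agent.H499.Tri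

open Module QuadraticMap MulAction
open Cfsg.Agent.LieClassical.OrthCore Cfsg.Agent.LieClassical.OrthTrans
open Cfsg.Agent.LieClassical.OrthSimple Cfsg.Agent.ClassicalGeometry.OrthSemi
open Cfsg.Agent.ClassicalGeometry.OrthAut1 Cfsg.Agent.H106.RC Cfsg.Agent.H93.RC Cfsg.Agent.H566.RC
open Cfsg.Agent.LieClassical.QuadForms Cfsg.Agent.ClassicalGeometry.TrialityOct
open Cfsg.Agent.ClassicalGeometry.Triality Cfsg.Agent.ClassicalGeometry.TrialitySpaces
open Cfsg.Agent.H198.TriBase Cfsg.Agent.H198.TriAut Cfsg.Agent.H206.Balance Cfsg.Agent.H198.TriDia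
open Cfsg.Agent.H864.RC Cfsg.Agent.H579.RC

variable {F : Type} [Field F] {G Ω ι : Type} [Group G] [MulAction G Ω] {N : Subgroup G}

/-! ### The family with the member `x₁` -/

/-- the family `x₁, x i` -/
def fam {α : Type*} (x₁ : α) (x : ι → α) : Option ι → α
  | none => x₁
  | some i => x i

/-- the generic part of (IR) and (KL) from `NoN` -/
theorem gen_of_NoN [Finite ι] [DecidableEq (Option ι)] (hno : NoN Ω N) {x₁ : G} {x : ι → G} {r : ι → ℕ}
    (hx : PF x r) (hxN : ∀ i, x i ∈ N) (y : G) (l : ℕ) (hy : y ∈ N) (hy1 : y ≠ 1) (hl : l.Prime)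
    (hyl : y ^ l = 1) (hlr : ∀ i, r i ≠ l) (hyc : ∀ i, y * x i = x i * y)
    (hc : Cov Ω (Function.update (fam x₁ x) none y)) : False := by
  have e : Function.update (fam x₁ x) none y = fam y x := by
    funext o
    rcases o with _ | i
    · rw [Function.update_self]; rfl
    · rw [Function.update_of_ne (by simp)]; rfl
  rw [e] at hc
  refine hno (Option ι) (fam y x) (fam l r) ⟨?_, ?_, ?_, ?_, ?_⟩ hc ?_
  · rintro (_ | i)
    · exact hl
    · exact hx.prime i
  · rintro (_ | i) (_ | j) h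
    · rfl
    · exact (hlr j h.symm).elim
    · exact (hlr i h).elim
    · exact congrArg some (hx.inj h)
  · rintro (_ | i)
    · exact hyl
    · exact hx.pow i
  · rintro (_ | i)
    · exact hy1
    · exact hx.ne i
  · rintro (_ | i) (_ | j)
    · rfl
    · exact hyc j
    · exact (hyc i).symm
    · exact hx.comm i j
  · rintro (_ | i)
    · exact hy
    · exact hxN i

section T3

variable {hG : Good (plusForm 4 F)} {κ : P8 F →* G} {s : F ≃+* F} {x₁ : G} {x : ι → G} {r : ι → ℕ}
  {g : ι → (V8 F ≃ₗ[F] V8 F)}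

theorem x1_ne (h : T3 hG N κ s Ω x₁ x r g) : x₁ ≠ 1 := by
  intro h1
  have h2 := h.tri
  rw [h1] at h2
  have h3 := La.unique h.rp h2 La.one
  exact xt_not_mem hG (fG s) (by rw [h3]; exact one_mem _)

/-- the cover `x₁, x i` is a commuting family of different prime orders -/
theorem pf_fam (h : T3 hG N κ s Ω x₁ x r g) : PF (fam x₁ x) (fam 3 r) := by
  refine ⟨?_, ?_, ?_, ?_, ?_⟩
  · rintro (_ | i)
    · exact Nat.prime_three
    · exact h.prime i
  · rintro (_ | i) (_ | j) h'
    · rfl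
    · exact (h.three j h'.symm).elim
    · exact (h.three i h').elim
    · exact congrArg some (h.inj h')
  · rintro (_ | i)
    · exact h.x1_cube
    · exact h.x_pow i
  · rintro (_ | i)
    · exact x1_ne h
    · exact h.x_ne i
  · rintro (_ | i) (_ | j)
    · rfl
    · exact h.x1_comm j
    · exact (h.x1_comm i).symm
    · exact h.x_comm i j

theorem cov_fam (h : T3 hG N κ s Ω x₁ x r g) : Cov Ω (fam x₁ x) := by
  intro ω
  rcases h.cov ω with h1 | ⟨i, h1⟩
  · exact ⟨none, h1⟩
  · exact ⟨some i, h1⟩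

theorem up_mem (h : T3 hG N κ s Ω x₁ x r g) (c : ↥(E (plusForm 4 F))) : up κ c ∈ N := by
  rw [← h.rp.range]
  exact ⟨_, rfl⟩

theorem exists_up (h : T3 hG N κ s Ω x₁ x r g) {d : G} (hd : d ∈ N) : ∃ c : ↥(E (plusForm 4 F)), up κ c = d := by
  rw [← h.rp.range] at hd
  obtain ⟨a, rfl⟩ := hd
  obtain ⟨t, rfl⟩ := QuotientGroup.mk_surjective a
  exact ⟨t, rfl⟩

/-- **(IR)** in the environment `T3`: `[C, x₁]`, `C = C_N(x i)`, has no elements of prime order `l`, `l` no `r i` -/
theorem T3_ir [Finite G] [Finite ι] [DecidableEq (Option ι)] (h : T3 hG N κ s Ω x₁ x r g) (hno : NoN Ω N) {l : ℕ}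
    (hl : l.Prime) (hlr : ∀ i, r i ≠ l) : ¬ l ∣ Nat.card (Dcm N (fam x₁ x) none) := by
  refine ir_card (pf_fam h) (cov_fam h) h.env.norm ?_ hl (fun j hj => ?_)
  · intro y l' hy hy1 hl' hyl hlr' hyc hc
    exact gen_of_NoN hno h.pf h.x_mem y l' hy hy1 hl' hyl (fun i => hlr' (some i) (by simp))
      (fun i => hyc (some i) (by simp)) hc
  · rcases j with _ | j
    · exact (hj rfl).elim
    · exact hlr j

/-- **(KL)** in the environment `T3`, for a subgroup `P` of `E Q` whose elements commute with the `g i`: after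
conjugation by an element of `E Q` it consists, up to sign, of automorphisms of the twisted product -/
theorem T3_kl [Finite G] [Finite ι] (h : T3 hG N κ s Ω x₁ x r g) (hno : NoN Ω N) {l : ℕ}
    (hl : l.Prime) (hlr : ∀ i, r i ≠ l) {P : Subgroup ↥(E (plusForm 4 F))} (hP : IsPGroup l P)
    (hPc : ∀ a ∈ P, ∀ i, (a : V8 F ≃ₗ[F] V8 F) * g i = g i * a) :
    ∃ c : ↥(E (plusForm 4 F)), ∀ a ∈ P, ∃ e : F, e * e = 1 ∧ ∃ b : ↥(E (plusForm 4 F)),
      (b : V8 F ≃ₗ[F] V8 F) ∈ AutD (fG s) ∧ ∀ v, (c * a * c⁻¹ : ↥(E (plusForm 4 F))).1 v = e • b.1 v := by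
  classical
  obtain ⟨d, hd, -, h2⟩ := ir_kl (pf_fam h) (cov_fam h) h.env.norm (i := none) (fun y l' hy hy1 hl' hyl hlr' hyc hc =>
    gen_of_NoN hno h.pf h.x_mem y l' hy hy1 hl' hyl (fun i => hlr' (some i) (by simp))
      (fun i => hyc (some i) (by simp)) hc) hl (fun j hj => by
        rcases j with _ | j
        · exact (hj rfl).elim
        · exact hlr j) (P := P.map (up κ)) (hP.map _) (by
        rintro _ ⟨a, -, rfl⟩
        exact up_mem h a) (by
        rintro _ ⟨a, ha, rfl⟩ j hj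
        rcases j with _ | j
        · exact (hj rfl).elim
        · change up κ a * x j = x j * up κ a
          rw [h.x_eq, ← map_mul, ← map_mul]
          congr 1
          exact Subtype.ext (hPc a ha j))
  obtain ⟨c, rfl⟩ := exists_up h hd
  refine ⟨c, fun a ha => ?_⟩
  have h3 := h2 (up κ a) ⟨a, ha, rfl⟩
  change (up κ c)⁻¹ * x₁ * up κ c * up κ a = up κ a * ((up κ c)⁻¹ * x₁ * up κ c) at h3
  have h4 : x₁ * up κ (c * a * c⁻¹) = up κ (c * a * c⁻¹) * x₁ := by
    rw [map_mul, map_mul, map_inv]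
    calc x₁ * (up κ c * up κ a * (up κ c)⁻¹)
        = up κ c * ((up κ c)⁻¹ * x₁ * up κ c * up κ a) * (up κ c)⁻¹ := by group
      _ = up κ c * (up κ a * ((up κ c)⁻¹ * x₁ * up κ c)) * (up κ c)⁻¹ := by rw [h3]
      _ = _ := by group
  obtain ⟨b, hb, hb'⟩ := h.mem_of_comm _ h4
  obtain ⟨e, he, he'⟩ := sign_of_mk_eq hG hb
  exact ⟨e, he, b, hb', he'⟩

end T3

/-! ### The twisted product -/

section dia

variable (s : F ≃+* F)

theorem dia_add_left (u u' w : V8 F) : dia (fG s) (u + u') w = dia (fG s) u w + dia (fG s) u' w := by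
  have e1 : oconj (u + u') = oconj u + oconj u' := by coord8
  have e2 : (fG s)⁻¹.1 (oconj u + oconj u') = (fG s)⁻¹.1 (oconj u) + (fG s)⁻¹.1 (oconj u') := by
    funext i
    exact map_add s.symm _ _
  rw [dia, e1, e2, add_omul]
  rfl

theorem dia_add_right (u w w' : V8 F) : dia (fG s) u (w + w') = dia (fG s) u w + dia (fG s) u w' := by
  have e1 : oconj (w + w') = oconj w + oconj w' := by coord8
  have e2 : (fG s).1 (oconj w + oconj w') = (fG s).1 (oconj w) + (fG s).1 (oconj w') := by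
    funext i
    exact map_add s _ _
  rw [dia, e1, e2, omul_add]
  rfl

theorem dia_smul_left (a : F) (u w : V8 F) : dia (fG s) (a • u) w = s.symm a • dia (fG s) u w := by
  have e1 : oconj (a • u) = a • oconj u := by coord8
  have e2 : (fG s)⁻¹.1 (a • oconj u) = s.symm a • (fG s)⁻¹.1 (oconj u) := by
    funext i
    exact map_mul s.symm _ _
  rw [dia, e1, e2, smul_omul]
  rfl

theorem dia_smul_right (a : F) (u w : V8 F) : dia (fG s) u (a • w) = s a • dia (fG s) u w := by
  have e1 : oconj (a • w) = a • oconj w := by coord8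
  have e2 : (fG s).1 (a • oconj w) = s a • (fG s).1 (oconj w) := by
    funext i
    exact map_mul s _ _
  rw [dia, e1, e2, omul_smul]
  rfl

/-- every vector is a product -/
theorem exists_dia (z : V8 F) : ∃ u w, dia (fG s) u w = z := by
  refine ⟨oconj ((fG s).1 (one8 F)), oconj ((fG s)⁻¹.1 z), ?_⟩
  have e1 : (fG s)⁻¹.1 ((fG s).1 (one8 F)) = one8 F := (fG s).1.symm_apply_apply _
  have e2 : (fG s).1 ((fG s)⁻¹.1 z) = z := (fG s).1.apply_symm_apply _
  rw [dia, oconj_oconj, oconj_oconj, e1, e2, one_omul]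

variable {s}

/-- independence of the characters `1`, `s⁻¹`, `s`, `s⁻¹ s` -/
theorem char_ind (hs : ∀ a, s (s (s a)) = a) (h1 : s ≠ RingEquiv.refl F) {a b c d : F}
    (h : ∀ t : F, t * a = s.symm t * b + s t * c + s.symm t * s t * d) : a = 0 := by
  classical
  have hne : ∃ t, s t ≠ t := by
    by_contra hno
    push Not at hno
    exact h1 (RingEquiv.ext hno)
  let f₀ : F →* F := MonoidHom.id F
  let f₁ : F →* F := (s.symm : F →* F)
  let f₂ : F →* F := (s : F →* F)
  let f₃ : F →* F := f₁ * f₂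
  have h01 : f₁ ≠ f₀ := by
    intro e
    obtain ⟨t, ht⟩ := hne
    apply ht
    have e1 : s.symm (s t) = s t := DFunLike.congr_fun e (s t)
    rw [RingEquiv.symm_apply_apply] at e1
    exact e1.symm
  have h02 : f₂ ≠ f₀ := by
    intro e
    obtain ⟨t, ht⟩ := hne
    exact ht (DFunLike.congr_fun e t)
  have h03 : f₃ ≠ f₀ := by
    intro e
    have e0 : ∀ t, s.symm t * s t = t := fun t => DFunLike.congr_fun e t
    have e1 : ∀ t, s.symm t = s (s t) := fun t => by
      rw [RingEquiv.symm_apply_eq]; exact (hs t).symm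
    obtain ⟨t, ht⟩ := hne
    have ht0 : t ≠ 0 := by rintro rfl; exact ht (map_zero s)
    have hst0 : s t ≠ 0 := (map_ne_zero s).2 ht0
    have e2 := e0 t
    have e3 := e0 (s t)
    rw [RingEquiv.symm_apply_apply] at e3
    -- `s⁻¹ t * s t = t`, `t * s (s t) = s t`
    rw [e1] at e2
    have e4 : t * t = s t * s t := by
      calc t * t = t * (s (s t) * s t) := by rw [e2]
        _ = (t * s (s t)) * s t := by ring
        _ = s t * s t := by rw [e3]
    have e5 : (t - s t) * (t + s t) = 0 := by ring_nf; rw [pow_two, pow_two, e4]; ring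
    rcases mul_eq_zero.1 e5 with e6 | e6
    · exact ht (sub_eq_zero.1 e6).symm
    · -- `s t = - t`, so `s (s (s t)) = - t = t`
      have e7 : s t = -t := by rw [eq_neg_iff_add_eq_zero, add_comm]; exact e6
      have e8 := hs t
      rw [e7, map_neg, e7, map_neg, map_neg, e7, neg_neg] at e8
      exact ht (e7.trans e8)
  have hli := linearIndependent_monoidHom F F
  rw [linearIndependent_iff] at hli
  have key := hli (Finsupp.single f₀ a - Finsupp.single f₁ b - Finsupp.single f₂ c - Finsupp.single f₃ d) (by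
    rw [map_sub, map_sub, map_sub, Finsupp.linearCombination_single, Finsupp.linearCombination_single,
      Finsupp.linearCombination_single, Finsupp.linearCombination_single]
    funext t
    have h2 := h t
    change a * t - b * s.symm t - c * s t - d * (s.symm t * s t) = 0
    rw [mul_comm a t, h2]
    ring)
  have h3 := DFunLike.congr_fun key f₀
  rw [Finsupp.sub_apply, Finsupp.sub_apply, Finsupp.sub_apply, Finsupp.single_eq_same, Finsupp.single_eq_of_ne h01.symm,
    Finsupp.single_eq_of_ne h02.symm, Finsupp.single_eq_of_ne h03.symm, Finsupp.zero_apply] at h3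
  simpa using h3

/-- if all `1 + t M` are automorphisms of the twisted product, then `M = 0` -/
theorem eq_zero_of_aut (hs : ∀ a, s (s (s a)) = a) (h1 : s ≠ RingEquiv.refl F) {M : V8 F →ₗ[F] V8 F}
    (h : ∀ (t : F) (u w : V8 F), dia (fG s) u w + t • M (dia (fG s) u w) =
      dia (fG s) (u + t • M u) (w + t • M w)) : M = 0 := by
  apply LinearMap.ext
  intro z
  obtain ⟨u, w, rfl⟩ := exists_dia s z
  funext k
  change M (dia (fG s) u w) k = 0
  apply char_ind hs h1 (b := dia (fG s) (M u) w k) (c := dia (fG s) u (M w) k) (d := dia (fG s) (M u) (M w) k)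
  intro t
  have h2 := congrFun (h t u w) k
  rw [dia_add_left, dia_add_right, dia_add_right, dia_smul_left, dia_smul_right, dia_smul_left, dia_smul_right] at h2
  simp only [Pi.add_apply, Pi.smul_apply, smul_eq_mul] at h2
  linear_combination h2

end dia

/-! ### The one-parameter group -/

/-- `1 + t M` -/
def tv {M : V8 F →ₗ[F] V8 F} (hM : ∀ v, M (M v) = 0) (t : F) : V8 F ≃ₗ[F] V8 F :=
  LinearEquiv.ofLinearMap (LinearMap.id + t • M) (LinearMap.id - t • M)
    (LinearMap.ext fun v => by simp [hM]) (LinearMap.ext fun v => by simp [hM])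

theorem tv_apply {M : V8 F →ₗ[F] V8 F} (hM : ∀ v, M (M v) = 0) (t : F) (v : V8 F) : tv hM t v = v + t • M v := rfl

theorem tv_mul {M : V8 F →ₗ[F] V8 F} (hM : ∀ v, M (M v) = 0) (t t' : F) : tv hM t * tv hM t' = tv hM (t + t') := by
  apply LinearEquiv.ext
  intro v
  change tv hM t (tv hM t' v) = _
  rw [tv_apply, tv_apply, tv_apply, map_add, map_smul, hM, smul_zero, add_zero, add_smul, add_assoc, add_comm (t' • M v)]

theorem tv_zero {M : V8 F →ₗ[F] V8 F} (hM : ∀ v, M (M v) = 0) : tv hM 0 = 1 := by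
  apply LinearEquiv.ext
  intro v
  rw [tv_apply, zero_smul, add_zero]
  rfl

/-- the homomorphism `t ↦ 1 + t M` -/
def tvh {M : V8 F →ₗ[F] V8 F} (hM : ∀ v, M (M v) = 0) (hE : ∀ t, tv hM t ∈ E (plusForm 4 F)) :
    Multiplicative F →* ↥(E (plusForm 4 F)) where
  toFun t := ⟨tv hM t.toAdd, hE _⟩
  map_one' := Subtype.ext (tv_zero hM)
  map_mul' _ _ := Subtype.ext (tv_mul hM _ _).symm

/-- **One-parameter groups.** In the environment `T3`, with `r i ≠ p` for all `i`, there is no `M ≠ 0`, `M² = 0`,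
commuting with all `g i`, such that `1 + t M ∈ E Q` for all `t ∈ F`. -/
theorem no_one_param [Finite G] [Finite ι] {hG : Good (plusForm 4 F)} {κ : P8 F →* G} {s : F ≃+* F} {x₁ : G}
    {x : ι → G} {r : ι → ℕ} {g : ι → (V8 F ≃ₗ[F] V8 F)} (h : T3 hG N κ s Ω x₁ x r g) (hno : NoN Ω N)
    {p : ℕ} [hpp : Fact p.Prime] [CharP F p] (hp : ∀ i, r i ≠ p) {M : V8 F →ₗ[F] V8 F} (hM0 : M ≠ 0)
    (hM2 : ∀ v, M (M v) = 0) (hMc : ∀ i v, M (g i v) = g i (M v))
    (hE : ∀ t : F, ∃ c ∈ E (plusForm 4 F), ∀ v, c v = v + t • M v) : False := by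
  have hE' : ∀ t, tv hM2 t ∈ E (plusForm 4 F) := by
    intro t
    obtain ⟨c, hc, hc'⟩ := hE t
    have : tv hM2 t = c := LinearEquiv.ext fun v => (hc' v).symm
    rw [this]
    exact hc
  have hP : IsPGroup p (tvh hM2 hE').range := by
    rintro ⟨_, t, rfl⟩
    refine ⟨1, Subtype.ext ?_⟩
    rw [pow_one]
    change (tvh hM2 hE' t) ^ p = 1
    rw [← map_pow]
    have : t ^ p = 1 := by
      apply Multiplicative.toAdd.injective
      rw [toAdd_pow, nsmul_eq_mul, CharP.cast_eq_zero, zero_mul]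
      rfl
    rw [this, map_one]
  obtain ⟨c, hc⟩ := T3_kl h hno hpp.out hp hP (by
    rintro _ ⟨t, rfl⟩ i
    apply LinearEquiv.ext
    intro v
    change tv hM2 t.toAdd (g i v) = g i (tv hM2 t.toAdd v)
    rw [tv_apply, tv_apply, map_add, map_smul, hMc])
  -- the conjugate of `M`
  let M' : V8 F →ₗ[F] V8 F := (c : V8 F ≃ₗ[F] V8 F).toLinearMap ∘ₗ M ∘ₗ (c : V8 F ≃ₗ[F] V8 F).symm.toLinearMap
  have hB : ∀ (t : F) (v : V8 F), (c * tvh hM2 hE' (Multiplicative.ofAdd t) * c⁻¹ : ↥(E (plusForm 4 F))).1 v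
      = v + t • M' v := by
    intro t v
    change (c : V8 F ≃ₗ[F] V8 F) (tv hM2 t ((c : V8 F ≃ₗ[F] V8 F).symm v)) = _
    rw [tv_apply, map_add, map_smul, LinearEquiv.apply_symm_apply]
    rfl
  have haut : ∀ (t : F) (u w : V8 F), dia (fG s) u w + t • M' (dia (fG s) u w) =
      dia (fG s) (u + t • M' u) (w + t • M' w) := by
    by_cases h2 : (2 : F) = 0
    · intro t u w
      obtain ⟨e, he, b, hb, hb'⟩ := hc _ ⟨Multiplicative.ofAdd t, rfl⟩
      have he1 : e = 1 := by
        have : (e - 1) * (e - 1) = 0 := by linear_combination he + (1 - e) * h2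
        exact sub_eq_zero.1 (mul_self_eq_zero.1 this)
      have hb1 : ∀ v, (b : V8 F ≃ₗ[F] V8 F) v = v + t • M' v := by
        intro v
        rw [← hB, hb', he1, one_smul]
      rw [← hb1, ← hb1, ← hb1]
      exact hb.2 u w
    · intro t u w
      obtain ⟨e, he, b, hb, hb'⟩ := hc _ ⟨Multiplicative.ofAdd (t / 2), rfl⟩
      have hb1 : ∀ v, (b : V8 F ≃ₗ[F] V8 F) v = e • (v + (t / 2) • M' v) := by
        intro v
        rw [← hB, hb', smul_smul, he, one_smul]
      have hM' : ∀ v, M' (M' v) = 0 := by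
        intro v
        change (c : V8 F ≃ₗ[F] V8 F) (M ((c : V8 F ≃ₗ[F] V8 F).symm ((c : V8 F ≃ₗ[F] V8 F)
          (M ((c : V8 F ≃ₗ[F] V8 F).symm v))))) = 0
        rw [LinearEquiv.symm_apply_apply, hM2, map_zero]
      have hb2 : ∀ v, ((b : V8 F ≃ₗ[F] V8 F) * b) v = v + t • M' v := by
        intro v
        change (b : V8 F ≃ₗ[F] V8 F) ((b : V8 F ≃ₗ[F] V8 F) v) = _
        rw [hb1, hb1, map_smul, map_add, map_smul, hM', smul_zero, add_zero]
        have h3 : t = t / 2 + t / 2 := by field_simp; ring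
        rw [smul_comm (t / 2) e (M' v), ← smul_add, smul_smul, he, one_smul, add_assoc, ← add_smul, ← h3]
      have h4 := (mul_mem hb hb : (b : V8 F ≃ₗ[F] V8 F) * b ∈ AutD (fG s)).2 u w
      rw [hb2, hb2, hb2] at h4
      exact h4
  have h0 := eq_zero_of_aut h.cube h.ne haut
  apply hM0
  apply LinearMap.ext
  intro v
  have h5 : M' ((c : V8 F ≃ₗ[F] V8 F) v) = 0 := by rw [h0]; rfl
  change (c : V8 F ≃ₗ[F] V8 F) (M ((c : V8 F ≃ₗ[F] V8 F).symm ((c : V8 F ≃ₗ[F] V8 F) v))) = 0 at h5
  rw [LinearEquiv.symm_apply_apply] at h5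
  exact (c : V8 F ≃ₗ[F] V8 F).map_eq_zero_iff.1 h5

end Cfsg.Agent.H499.Tri
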